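import Cfsg.Agent.H141.Rg.Defs
import Cfsg.Agent.H851.Dg.Exc

/-!
# S5714: families of normal sets indexed by finite types; the sets of a missing prime power
-/

set_option autoImplicit false

namespace Cfsg.Agent.H851.Rg

open Cfsg Cfsg.Agent.OrdDiv Cfsg.Agent.H436 Cfsg.Agent.H915.GN Cfsg.Agent.H598.ExcFth Cfsg.Agent.H141.Rg
open Cfsg.Agent.H851.Dg

universe u

theorem nf_of_finite {T : Type u} [Group T] {ι : Type*} [Finite ι] {w : ℝ} (E : ι → Set T) (h1 : ∀ i, CInv (E i))
    (h2 : ∀ i, (Nat.card T : ℝ) ≤ w * Nat.card (E i)) (h3 : ∀ R : Subgroup T, R ≠ ⊤ → ∃ i, ∀ x ∈ R, x ∉ E i) :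
    NF (Nat.card ι) w T := by
  let e := Finite.equivFin ι
  refine ⟨fun i => E (e.symm i), fun i => h1 _, fun i => h2 _, fun R hR => ?_⟩
  obtain ⟨i, hi⟩ := h3 R hR
  exact ⟨e i, fun x hx => by simpa using hi x hx⟩

/-- the elements whose order is divisible by the full power of `u` -/
def fullU (T : Type u) [Group T] (s : ℕ) : Set T := {x | s ^ (Nat.card T).factorization s ∣ orderOf x}

theorem cinv_fullU {T : Type u} [Group T] (s : ℕ) : CInv (fullU T s) := by
  intro x hx g
  have h : orderOf (g * x * g⁻¹) = orderOf x := by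
    have := orderOf_injective (MulAut.conj g).toMonoidHom (MulAut.conj g).injective x
    simpa using this
  show _ ∣ orderOf (g * x * g⁻¹)
  rw [h]
  exact hx

theorem misses_fullU {T : Type u} [Group T] [Finite T] {s j : ℕ} (hs : s.Prime) (h1 : s ^ j ∣ Nat.card T)
    {R : Subgroup T} (h2 : ¬ s ^ j ∣ Nat.card R) : ∀ x ∈ R, x ∉ fullU T s := by
  intro x hx hE
  apply h2
  have h3 : j ≤ (Nat.card T).factorization s := (hs.pow_dvd_iff_le_factorization Nat.card_pos.ne').1 h1
  have h4 : orderOf (⟨x, hx⟩ : R) = orderOf x := Subgroup.orderOf_mk _ _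
  refine (pow_dvd_pow s h3).trans (dvd_trans hE ?_)
  rw [← h4]
  exact orderOf_dvd_natCard _

/-- the number of prime divisors of the order -/
theorem card_primeFactors_le {T : Type u} [Group T] [Finite T] :
    ((Nat.card (Nat.card T).primeFactors : ℕ) : ℝ) ≤ 1 / Real.log 2 * lg T := by
  have h0 : 0 < Real.log 2 := Real.log_pos (by norm_num)
  have h1 : 2 ^ (Nat.card T).primeFactors.card ≤ Nat.card T := by
    calc 2 ^ (Nat.card T).primeFactors.card = ∏ _p ∈ (Nat.card T).primeFactors, 2 := by
          rw [Finset.prod_const]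
      _ ≤ ∏ p ∈ (Nat.card T).primeFactors, p :=
          Finset.prod_le_prod' fun p hp => (Nat.prime_of_mem_primeFactors hp).two_le
      _ ≤ Nat.card T := Nat.le_of_dvd Nat.card_pos (Nat.prod_primeFactors_dvd _)
  have h2 : (2 : ℝ) ^ (Nat.card T).primeFactors.card ≤ Nat.card T := by exact_mod_cast h1
  have h3 := Real.log_le_log (by positivity) h2
  rw [Real.log_pow] at h3
  rw [Nat.card_eq_fintype_card, Fintype.card_coe, div_mul_eq_mul_div, one_mul, le_div_iff₀ h0]
  exact h3

/-- **Density** of the sets of full powers of primes with cyclic Sylow subgroups, exceptional groups. -/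
theorem exc_density : ∃ B : ℕ, ∀ (g : Grp) (T : Type) [Group T] [Finite T], IsNamed g T → IsExc g → B ≤ Nat.card T →
    ∀ s, s.Prime → s ∣ Nat.card T → CycP s T → Nat.card T ≤ 496 * Nat.card (fullU T s) := by
  obtain ⟨B, hB⟩ := exc_num_le 249
  refine ⟨B + 1, fun g T _ _ hT hg hBT u hu hd hcyc => ?_⟩
  obtain ⟨p, F, _, _, hp, hch, n, hn, ρ, hρ⟩ := exc_fth hT hg
  have := Fact.mk hp
  have := Fact.mk hu
  by_cases hup : u = p
  · exfalso
    subst hup
    obtain ⟨f, hf⟩ := exc_char hg hch
    have h3 := exc_sq_dvd hg hT.cond hT.eq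
    rw [hf, ← pow_mul] at h3
    have h4 := pow_le_of_cycP ρ hρ hcyc h3
    rw [Fintype.card_fin] at h4
    have h5 : qE g * qE g ≤ qE g * (n + 1) := by
      have h6 : u ≤ qE g := by
        rw [hf]
        have hf0 : f ≠ 0 := by
          rintro rfl
          have := exc_two_le hg hT.cond
          rw [hf] at this
          simp at this
        exact Nat.le_self_pow hf0 u
      calc qE g * qE g = u ^ (f * 2) := by rw [hf, ← pow_add]; congr 1; omega
        _ ≤ u * (n + 1) := h4
        _ ≤ qE g * (n + 1) := Nat.mul_le_mul_right _ h6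
    have h6 := Nat.le_of_mul_le_mul_left h5 (by have := exc_two_le hg hT.cond; omega)
    have h7 := hB g hg (by omega)
    have h8 : Nat.card T ≤ num g := by
      rw [← hT.eq]
      exact Nat.le_mul_of_pos_left _ (exc_den_pos hg hT.cond)
    omega
  · have huF : (u : F) ≠ 0 := by
      intro h
      rw [CharP.cast_eq_zero_iff F p u] at h
      exact hup ((Nat.prime_dvd_prime_iff_eq hp hu).1 h).symm
    have hj : 1 ≤ (Nat.card T).factorization u :=
      (hu.pow_dvd_iff_le_factorization Nat.card_pos.ne').1 (by simpa using hd)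
    have h3 := sing_pow huF ρ hρ hcyc hj (Nat.ordProj_dvd _ _)
    rw [Fintype.card_fin] at h3
    exact h3.trans (Nat.mul_le_mul_right _ (by omega))

end Cfsg.Agent.H851.Rg
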